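import Mathlib
import Cfsg.Agent.H436.Names

/-!
# S3691: the size of the field of a simple group of Lie type of order greater than `3 * 29!` (helper370)

* `card_le` : `|T| ≤ (qf g) ^ (dm g)` for `IsNamed g T`, `g` a family of Lie type (`dm g` the dimension of the group);
* `lt_qf` : if moreover `N < |T|` and `c ^ dm g ≤ N` then `c < qf g`;
* `alt_ge`, `spor_bm`, and the theorems of the families: `3 * 29! < |T|` implies lower bounds of `q`.
-/

set_option autoImplicit false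

namespace Cfsg.Agent.H370.Rg

open Cfsg Cfsg.Agent.OrdDiv Cfsg.Agent.H436 Finset

universe u

/-- the dimension of the group of Lie type -/
def dm : Grp → ℕ
  | .psl n _ => n ^ 2 - 1
  | .psu n _ => n ^ 2 - 1
  | .psp m _ => m * (2 * m + 1)
  | .oodd m _ => m * (2 * m + 1)
  | .oplus m _ => m * (2 * m - 1)
  | .ominus m _ => m * (2 * m - 1)
  | .g2 _ => 14
  | .f4 _ => 52
  | .e6 _ => 78
  | .te6 _ => 78
  | .e7 _ => 133
  | .e8 _ => 248
  | .td4 _ => 28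
  | .sz _ => 5
  | .ree _ => 7
  | .tf4 _ => 26
  | _ => 0

/-- the parameter `q` -/
def qf : Grp → ℕ
  | .psl _ q | .psu _ q | .psp _ q | .oodd _ q | .oplus _ q | .ominus _ q => q
  | .g2 q | .f4 q | .e6 q | .te6 q | .e7 q | .e8 q | .td4 q | .sz q | .ree q | .tf4 q => q
  | _ => 0

theorem prodE_le (q k : ℕ) : ∏ i ∈ range k, (q ^ (2 * (i + 1)) - 1) ≤ q ^ (k * (k + 1)) := by
  induction k with
  | zero => simp
  | succ k ih =>
    rw [Finset.prod_range_succ]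
    calc _ ≤ q ^ (k * (k + 1)) * q ^ (2 * (k + 1)) := Nat.mul_le_mul ih (Nat.sub_le _ _)
      _ = _ := by rw [← pow_add]; congr 1; ring

theorem prodE_le' (q k : ℕ) : ∏ i ∈ range k, (q ^ (2 * (i + 1 + 1)) - 1) ≤ q ^ (k * (k + 3)) := by
  induction k with
  | zero => simp
  | succ k ih =>
    rw [Finset.prod_range_succ]
    calc _ ≤ q ^ (k * (k + 3)) * q ^ (2 * (k + 1 + 1)) := Nat.mul_le_mul ih (Nat.sub_le _ _)
      _ = _ := by rw [← pow_add]; congr 1; ring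

theorem prB_le (q k : ℕ) : prB q k ≤ q ^ (k * (k + 1)) := by
  unfold prB
  rw [prod_list]
  exact prodE_le q k

theorem prodU_le (q k : ℕ) (hq : 1 ≤ q) :
    ∏ i ∈ range k, (if Even i then q ^ (i + 2) - 1 else q ^ (i + 2) + 1) ≤ q ^ (k * (k + 3) / 2) := by
  have hev : ∀ j, ∏ i ∈ range (2 * j), (if Even i then q ^ (i + 2) - 1 else q ^ (i + 2) + 1) ≤
      q ^ (2 * j * (2 * j + 3) / 2) := by
    intro j
    induction j with
    | zero => simp
    | succ j ih =>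
      rw [show 2 * (j + 1) = 2 * j + 1 + 1 by ring, Finset.prod_range_succ, Finset.prod_range_succ,
        if_pos (even_two_mul j), if_neg (Nat.not_even_two_mul_add_one j)]
      have h1 : (2 * j + 1 + 1) * (2 * j + 1 + 1 + 3) / 2 = 2 * j * (2 * j + 3) / 2 + (4 * j + 5) := by
        have : (2 * j + 1 + 1) * (2 * j + 1 + 1 + 3) = 2 * j * (2 * j + 3) + (4 * j + 5) * 2 := by ring
        rw [this, Nat.add_mul_div_right _ _ (by norm_num)]
      rw [h1, pow_add q (2 * j * (2 * j + 3) / 2) (4 * j + 5), mul_assoc]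
      refine Nat.mul_le_mul ih ?_
      obtain ⟨x, hx⟩ : ∃ x, q ^ (2 * j + 2) = x + 1 := ⟨q ^ (2 * j + 2) - 1, by
        have := Nat.one_le_pow (2 * j + 2) q hq; omega⟩
      have h2 : q ^ (2 * j + 1 + 2) = (x + 1) * q := by rw [← hx]; ring
      have h3 : q ^ (4 * j + 5) = (x + 1) * ((x + 1) * q) := by rw [← hx]; ring
      rw [hx, h2, h3, Nat.add_sub_cancel]
      nlinarith [Nat.mul_le_mul_left x hq]
  rcases Nat.even_or_odd' k with ⟨j, rfl | rfl⟩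
  · exact hev j
  · rw [Finset.prod_range_succ, if_pos (even_two_mul j)]
    have h1 : (2 * j + 1) * (2 * j + 1 + 3) / 2 = 2 * j * (2 * j + 3) / 2 + (2 * j + 2) := by
      have : (2 * j + 1) * (2 * j + 1 + 3) = 2 * j * (2 * j + 3) + (2 * j + 2) * 2 := by ring
      rw [this, Nat.add_mul_div_right _ _ (by norm_num)]
    rw [h1, pow_add q (2 * j * (2 * j + 3) / 2) (2 * j + 2)]
    exact Nat.mul_le_mul (hev j) (Nat.sub_le _ _)

theorem sumLU (k : ℕ) : (k + 1) * k / 2 + k * (k + 3) / 2 = (k + 1) ^ 2 - 1 := by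
  have h1 : 2 * ((k + 1) * k / 2) = (k + 1) * k :=
    Nat.two_mul_div_two_of_even (by rw [mul_comm]; exact Nat.even_mul_succ_self k)
  have h2 : 2 * (k * (k + 3) / 2) = k * (k + 3) := by
    apply Nat.two_mul_div_two_of_even
    have : k * (k + 3) = k * (k + 1) + 2 * k := by ring
    rw [this]
    exact (Nat.even_mul_succ_self k).add (even_two_mul k)
  have h3 : (k + 1) ^ 2 = (k * (k + 2)) + 1 := by ring
  have h4 : (k + 1) * k + k * (k + 3) = 2 * (k * (k + 2)) := by ring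
  omega

theorem prU_le {q k : ℕ} (hq : 1 ≤ q) : prU q (k + 1) ≤ (q + 1) * q ^ (k * (k + 3) / 2) := by
  unfold prU
  rw [prod_list, Finset.prod_range_succ']
  rw [mul_comm]
  refine Nat.mul_le_mul (le_of_eq ?_) ?_
  · norm_num
  · refine le_trans (le_of_eq ?_) (prodU_le q k hq)
    refine Finset.prod_congr rfl fun i _ => ?_
    by_cases h : Even i
    · rw [if_pos h, if_neg]
      rw [Nat.beq_eq]
      have := Nat.even_iff.1 h
      omega
    · rw [if_neg h, if_pos]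
      rw [Nat.beq_eq]
      have := Nat.odd_iff.1 (Nat.not_even_iff_odd.1 h)
      omega

theorem glN_le {q k : ℕ} : glN (k + 1) q ≤ (q - 1) * q ^ ((k + 1) ^ 2 - 1) := by
  unfold glN
  rw [prod_list, Finset.prod_range_succ]
  have h1 : ∏ i ∈ range k, (q ^ (k + 1) - q ^ i) ≤ ∏ _i ∈ range k, q ^ (k + 1) :=
    Finset.prod_le_prod' fun i _ => Nat.sub_le _ _
  have h2 : q ^ (k + 1) - q ^ k = (q - 1) * q ^ k := by
    rw [Nat.sub_mul, one_mul, pow_succ, mul_comm]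
  rw [Finset.prod_const, Finset.card_range, ← pow_mul] at h1
  rw [h2]
  calc _ ≤ q ^ ((k + 1) * k) * ((q - 1) * q ^ k) := Nat.mul_le_mul_right _ h1
    _ = (q - 1) * q ^ ((k + 1) * k + k) := by rw [pow_add]; ring
    _ = _ := by
        congr 2
        have : (k + 1) ^ 2 = (k + 1) * k + k + 1 := by ring
        omega

theorem of_den {c d n B : ℕ} (h : d * c = n) (hd : 1 ≤ d) (hn : n ≤ B) : c ≤ B := by
  calc c = 1 * c := (one_mul c).symm
    _ ≤ d * c := Nat.mul_le_mul_right _ hd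
    _ ≤ B := h.le.trans hn

/-- `|T| ≤ q ^ dim` -/
theorem card_le {g : Grp} {T : Type u} [Group T] (h : IsNamed g T) (hg : dm g ≠ 0) : Nat.card T ≤ qf g ^ dm g := by
  have he := h.eq
  have hc := h.cond
  cases g with
  | psl n q =>
    obtain ⟨hn, hn2, hq⟩ := hc
    have hq1 := hq.one_lt
    obtain ⟨k, rfl⟩ : ∃ k, n = k + 1 := ⟨n - 1, by omega⟩
    change Nat.gcd (k + 1) (q - 1) * (q - 1) * Nat.card T = glN (k + 1) q at he
    change Nat.card T ≤ q ^ ((k + 1) ^ 2 - 1)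
    have h1 : (q - 1) * Nat.card T ≤ (q - 1) * q ^ ((k + 1) ^ 2 - 1) := by
      refine le_trans ?_ glN_le
      rw [← he, mul_assoc]
      exact Nat.le_mul_of_pos_left _ (Nat.gcd_pos_of_pos_left _ (by omega))
    exact Nat.le_of_mul_le_mul_left h1 (by omega)
  | psp m q =>
    obtain ⟨hn, hn2, hq⟩ := hc
    have hq1 := hq.one_lt
    change Nat.gcd 2 (q - 1) * Nat.card T = q ^ (m ^ 2) * prB q m at he
    change Nat.card T ≤ q ^ (m * (2 * m + 1))
    refine of_den he (Nat.gcd_pos_of_pos_left _ (by omega)) ?_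
    calc _ ≤ q ^ (m ^ 2) * q ^ (m * (m + 1)) := Nat.mul_le_mul_left _ (prB_le q m)
      _ = _ := by rw [← pow_add]; congr 1; ring
  | psu n q =>
    obtain ⟨hn, hn2, hq⟩ := hc
    have hq1 := hq.one_lt
    obtain ⟨k, rfl⟩ : ∃ k, n = k + 1 := ⟨n - 1, by omega⟩
    change Nat.gcd (k + 1) (q + 1) * (q + 1) * Nat.card T = q ^ ((k + 1) * (k + 1 - 1) / 2) * prU q (k + 1) at he
    change Nat.card T ≤ q ^ ((k + 1) ^ 2 - 1)
    have h1 : (q + 1) * Nat.card T ≤ (q + 1) * q ^ ((k + 1) ^ 2 - 1) := by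
      calc (q + 1) * Nat.card T ≤ Nat.gcd (k + 1) (q + 1) * ((q + 1) * Nat.card T) :=
            Nat.le_mul_of_pos_left _ (Nat.gcd_pos_of_pos_left _ (by omega))
        _ = q ^ ((k + 1) * k / 2) * prU q (k + 1) := by rw [← mul_assoc]; exact he
        _ ≤ q ^ ((k + 1) * k / 2) * ((q + 1) * q ^ (k * (k + 3) / 2)) := Nat.mul_le_mul_left _ (prU_le (by omega))
        _ = (q + 1) * q ^ ((k + 1) * k / 2 + k * (k + 3) / 2) := by rw [pow_add]; ring
        _ = _ := by rw [sumLU]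
    exact Nat.le_of_mul_le_mul_left h1 (by omega)
  | oodd m q =>
    obtain ⟨hn, hn2, hq⟩ := hc
    have hq1 := hq.one_lt
    change 2 * Nat.card T = q ^ (m ^ 2) * prB q m at he
    change Nat.card T ≤ q ^ (m * (2 * m + 1))
    refine of_den he (by omega) ?_
    calc _ ≤ q ^ (m ^ 2) * q ^ (m * (m + 1)) := Nat.mul_le_mul_left _ (prB_le q m)
      _ = _ := by rw [← pow_add]; congr 1; ring
  | oplus m q =>
    obtain ⟨hn, hq⟩ := hc
    have hq1 := hq.one_lt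
    obtain ⟨k, rfl⟩ : ∃ k, m = k + 1 := ⟨m - 1, by omega⟩
    change Nat.gcd 4 (q ^ (k + 1) - 1) * Nat.card T = q ^ ((k + 1) * (k + 1 - 1)) *
      ((q ^ (k + 1) - 1) * prB q (k + 1 - 1)) at he
    change Nat.card T ≤ q ^ ((k + 1) * (2 * (k + 1) - 1))
    refine of_den he (Nat.gcd_pos_of_pos_left _ (by omega)) ?_
    rw [Nat.add_sub_cancel]
    calc _ ≤ q ^ ((k + 1) * k) * (q ^ (k + 1) * q ^ (k * (k + 1))) :=
          Nat.mul_le_mul_left _ (Nat.mul_le_mul (Nat.sub_le _ _) (prB_le q k))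
      _ = _ := by
        rw [← pow_add, ← pow_add]
        congr 1
        rw [show 2 * (k + 1) - 1 = 2 * k + 1 by omega]
        ring
  | ominus m q =>
    obtain ⟨hn, hq⟩ := hc
    have hq1 := hq.one_lt
    obtain ⟨k, rfl⟩ : ∃ k, m = k + 2 := ⟨m - 2, by omega⟩
    change Nat.gcd 4 (q ^ (k + 2) + 1) * Nat.card T = q ^ ((k + 2) * (k + 1)) *
      ((q ^ (k + 2) + 1) * prB q (k + 1)) at he
    change Nat.card T ≤ q ^ ((k + 2) * (2 * (k + 2) - 1))
    refine of_den he (Nat.gcd_pos_of_pos_left _ (by omega)) ?_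
    have h1 : (q ^ (k + 2) + 1) * prB q (k + 1) ≤ q ^ (k + 2) * q ^ ((k + 1) * (k + 2)) := by
      unfold prB
      rw [prod_list, Finset.prod_range_succ']
      have h2 := prodE_le' q k
      have h3 : (q ^ (k + 2) + 1) * (q ^ (2 * (0 + 1)) - 1) ≤ q ^ (k + 2) * q ^ 2 := by
        have h4 : q ^ 2 ≤ q ^ (k + 2) := Nat.pow_le_pow_right (by omega) (by omega)
        obtain ⟨y, hy⟩ : ∃ y, q ^ 2 = y + 1 := ⟨q ^ 2 - 1, by
          have := Nat.one_le_pow 2 q (by omega); omega⟩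
        rw [show 2 * (0 + 1) = 2 by norm_num, hy, Nat.add_sub_cancel]
        rw [hy] at h4
        nlinarith
      calc _ = (∏ i ∈ range k, (q ^ (2 * (i + 1 + 1)) - 1)) * ((q ^ (k + 2) + 1) * (q ^ (2 * (0 + 1)) - 1)) := by ring
        _ ≤ q ^ (k * (k + 3)) * (q ^ (k + 2) * q ^ 2) := Nat.mul_le_mul h2 h3
        _ = _ := by rw [← pow_add, ← pow_add, ← pow_add]; congr 1; ring
    calc _ ≤ q ^ ((k + 2) * (k + 1)) * (q ^ (k + 2) * q ^ ((k + 1) * (k + 2))) := Nat.mul_le_mul_left _ h1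
      _ = _ := by
        rw [← pow_add, ← pow_add]
        congr 1
        rw [show 2 * (k + 2) - 1 = 2 * k + 3 by omega]
        ring
  | g2 q =>
    change 1 * Nat.card T = q ^ 6 * ((q ^ 2 - 1) * (q ^ 6 - 1)) at he
    change Nat.card T ≤ q ^ 14
    refine of_den he le_rfl ?_
    calc _ ≤ q ^ 6 * (q ^ 2 * q ^ 6) := by gcongr <;> exact Nat.sub_le _ _
      _ = _ := by ring
  | f4 q =>
    change 1 * Nat.card T = q ^ 24 * ((q ^ 2 - 1) * (q ^ 6 - 1) * (q ^ 8 - 1) * (q ^ 12 - 1)) at he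
    change Nat.card T ≤ q ^ 52
    refine of_den he le_rfl ?_
    calc _ ≤ q ^ 24 * (q ^ 2 * q ^ 6 * q ^ 8 * q ^ 12) := by gcongr <;> exact Nat.sub_le _ _
      _ = _ := by ring
  | e6 q =>
    change Nat.gcd 3 (q - 1) * Nat.card T = q ^ 36 * ((q ^ 2 - 1) * (q ^ 5 - 1) * (q ^ 6 - 1) * (q ^ 8 - 1) *
      (q ^ 9 - 1) * (q ^ 12 - 1)) at he
    change Nat.card T ≤ q ^ 78
    refine of_den he (Nat.gcd_pos_of_pos_left _ (by omega)) ?_
    calc _ ≤ q ^ 36 * (q ^ 2 * q ^ 5 * q ^ 6 * q ^ 8 * q ^ 9 * q ^ 12) := by gcongr <;> exact Nat.sub_le _ _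
      _ = _ := by ring
  | e7 q =>
    change Nat.gcd 2 (q - 1) * Nat.card T = q ^ 63 * ((q ^ 2 - 1) * (q ^ 6 - 1) * (q ^ 8 - 1) * (q ^ 10 - 1) *
      (q ^ 12 - 1) * (q ^ 14 - 1) * (q ^ 18 - 1)) at he
    change Nat.card T ≤ q ^ 133
    refine of_den he (Nat.gcd_pos_of_pos_left _ (by omega)) ?_
    calc _ ≤ q ^ 63 * (q ^ 2 * q ^ 6 * q ^ 8 * q ^ 10 * q ^ 12 * q ^ 14 * q ^ 18) := by
          gcongr <;> exact Nat.sub_le _ _
      _ = _ := by ring
  | e8 q =>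
    change 1 * Nat.card T = q ^ 120 * ((q ^ 2 - 1) * (q ^ 8 - 1) * (q ^ 12 - 1) * (q ^ 14 - 1) * (q ^ 18 - 1) *
      (q ^ 20 - 1) * (q ^ 24 - 1) * (q ^ 30 - 1)) at he
    change Nat.card T ≤ q ^ 248
    refine of_den he le_rfl ?_
    calc _ ≤ q ^ 120 * (q ^ 2 * q ^ 8 * q ^ 12 * q ^ 14 * q ^ 18 * q ^ 20 * q ^ 24 * q ^ 30) := by
          gcongr <;> exact Nat.sub_le _ _
      _ = _ := by ring
  | te6 q =>
    have hq1 := IsPrimePow.one_lt (show IsPrimePow q from hc)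
    change Nat.gcd 3 (q + 1) * Nat.card T = q ^ 36 * ((q ^ 2 - 1) * (q ^ 5 + 1) * (q ^ 6 - 1) * (q ^ 8 - 1) *
      (q ^ 9 + 1) * (q ^ 12 - 1)) at he
    change Nat.card T ≤ q ^ 78
    refine of_den he (Nat.gcd_pos_of_pos_left _ (by omega)) ?_
    have h1 : (q ^ 2 - 1) * (q ^ 5 + 1) ≤ q ^ 2 * q ^ 5 := by
      obtain ⟨y, hy⟩ : ∃ y, q ^ 2 = y + 1 := ⟨q ^ 2 - 1, by
        have := Nat.one_le_pow 2 q (by omega); omega⟩
      have h4 : q ^ 2 ≤ q ^ 5 := Nat.pow_le_pow_right (by omega) (by omega)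
      rw [hy] at h4
      rw [hy, Nat.add_sub_cancel]
      nlinarith
    have h2 : (q ^ 8 - 1) * (q ^ 9 + 1) ≤ q ^ 8 * q ^ 9 := by
      obtain ⟨y, hy⟩ : ∃ y, q ^ 8 = y + 1 := ⟨q ^ 8 - 1, by
        have := Nat.one_le_pow 8 q (by omega); omega⟩
      have h4 : q ^ 8 ≤ q ^ 9 := Nat.pow_le_pow_right (by omega) (by omega)
      rw [hy] at h4
      rw [hy, Nat.add_sub_cancel]
      nlinarith
    calc _ = q ^ 36 * (((q ^ 2 - 1) * (q ^ 5 + 1)) * (q ^ 6 - 1) * ((q ^ 8 - 1) * (q ^ 9 + 1)) * (q ^ 12 - 1)) := by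
          ring
      _ ≤ q ^ 36 * ((q ^ 2 * q ^ 5) * q ^ 6 * (q ^ 8 * q ^ 9) * q ^ 12) := by
          gcongr <;> exact Nat.sub_le _ _
      _ = _ := by ring
  | td4 q =>
    have hq1 := IsPrimePow.one_lt (show IsPrimePow q from hc)
    change 1 * Nat.card T = q ^ 12 * ((q ^ 2 - 1) * (q ^ 6 - 1) * (q ^ 8 + q ^ 4 + 1)) at he
    change Nat.card T ≤ q ^ 28
    refine of_den he le_rfl ?_
    have h1 : (q ^ 2 - 1) * (q ^ 8 + q ^ 4 + 1) ≤ q ^ 10 := by
      obtain ⟨y, hy⟩ : ∃ y, q ^ 2 = y + 1 := ⟨q ^ 2 - 1, by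
        have := Nat.one_le_pow 2 q (by omega); omega⟩
      have h4 : q ^ 8 = (y + 1) ^ 4 := by rw [← hy]; ring
      have h5 : q ^ 4 = (y + 1) ^ 2 := by rw [← hy]; ring
      have h6 : q ^ 10 = (y + 1) ^ 5 := by rw [← hy]; ring
      rw [hy, h4, h5, h6, Nat.add_sub_cancel]
      nlinarith [Nat.zero_le y, Nat.zero_le (y ^ 2), Nat.zero_le (y ^ 3), Nat.zero_le (y ^ 4)]
    calc _ = q ^ 12 * (((q ^ 2 - 1) * (q ^ 8 + q ^ 4 + 1)) * (q ^ 6 - 1)) := by ring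
      _ ≤ q ^ 12 * (q ^ 10 * q ^ 6) := by gcongr; exact Nat.sub_le _ _
      _ = _ := by ring
  | sz q =>
    obtain ⟨m, hm, rfl⟩ := hc
    set q := 2 ^ (2 * m + 1) with hqd
    have hq1 : 1 < q := Nat.one_lt_two_pow (by omega)
    change 1 * Nat.card T = q ^ 2 * ((q - 1) * (q ^ 2 + 1)) at he
    change Nat.card T ≤ q ^ 5
    refine of_den he le_rfl ?_
    have h1 : (q - 1) * (q ^ 2 + 1) ≤ q ^ 3 := by
      obtain ⟨y, hy⟩ : ∃ y, q = y + 1 := ⟨q - 1, by omega⟩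
      rw [hy, Nat.add_sub_cancel]
      nlinarith [Nat.zero_le y, Nat.zero_le (y ^ 2)]
    calc _ ≤ q ^ 2 * q ^ 3 := Nat.mul_le_mul_left _ h1
      _ = _ := by ring
  | ree q =>
    obtain ⟨m, hm, rfl⟩ := hc
    set q := 3 ^ (2 * m + 1) with hqd
    have hq1 : 1 < q := Nat.one_lt_pow (by omega) (by norm_num)
    change 1 * Nat.card T = q ^ 3 * ((q - 1) * (q ^ 3 + 1)) at he
    change Nat.card T ≤ q ^ 7
    refine of_den he le_rfl ?_
    have h1 : (q - 1) * (q ^ 3 + 1) ≤ q ^ 4 := by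
      obtain ⟨y, hy⟩ : ∃ y, q = y + 1 := ⟨q - 1, by omega⟩
      rw [hy, Nat.add_sub_cancel]
      nlinarith [Nat.zero_le y, Nat.zero_le (y ^ 2), Nat.zero_le (y ^ 3)]
    calc _ ≤ q ^ 3 * q ^ 4 := Nat.mul_le_mul_left _ h1
      _ = _ := by ring
  | tf4 q =>
    obtain ⟨m, hm, rfl⟩ := hc
    set q := 2 ^ (2 * m + 1) with hqd
    have hq1 : 1 < q := Nat.one_lt_two_pow (by omega)
    change 1 * Nat.card T = q ^ 12 * ((q - 1) * (q ^ 3 + 1) * (q ^ 4 - 1) * (q ^ 6 + 1)) at he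
    change Nat.card T ≤ q ^ 26
    refine of_den he le_rfl ?_
    have h1 : (q - 1) * (q ^ 3 + 1) ≤ q ^ 4 := by
      obtain ⟨y, hy⟩ : ∃ y, q = y + 1 := ⟨q - 1, by omega⟩
      rw [hy, Nat.add_sub_cancel]
      nlinarith [Nat.zero_le y, Nat.zero_le (y ^ 2), Nat.zero_le (y ^ 3)]
    have h2 : (q ^ 4 - 1) * (q ^ 6 + 1) ≤ q ^ 10 := by
      obtain ⟨y, hy⟩ : ∃ y, q ^ 4 = y + 1 := ⟨q ^ 4 - 1, by
        have := Nat.one_le_pow 4 q (by omega); omega⟩
      have h4 : q ^ 4 ≤ q ^ 6 := Nat.pow_le_pow_right (by omega) (by omega)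
      have h5 : q ^ 10 = q ^ 4 * q ^ 6 := by ring
      rw [h5]
      rw [hy] at h4
      rw [hy, Nat.add_sub_cancel]
      nlinarith
    calc _ = q ^ 12 * (((q - 1) * (q ^ 3 + 1)) * ((q ^ 4 - 1) * (q ^ 6 + 1))) := by ring
      _ ≤ q ^ 12 * (q ^ 4 * q ^ 10) := Nat.mul_le_mul_left _ (Nat.mul_le_mul h1 h2)
      _ = _ := by ring
  | _ => exact absurd rfl hg

/-- the general lower bound of `q` -/
theorem lt_qf {g : Grp} {T : Type u} [Group T] (h : IsNamed g T) {c N : ℕ} (hN : N < Nat.card T)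
    (hg : dm g ≠ 0) (hc : c ^ dm g ≤ N) : c < qf g := by
  by_contra hcon
  have h1 : qf g ^ dm g ≤ c ^ dm g := Nat.pow_le_pow_left (by omega) _
  have := card_le h hg
  omega

/-- the lower bound of `q ^ dim` -/
theorem lt_pow {g : Grp} {T : Type u} [Group T] (h : IsNamed g T) {N : ℕ} (hN : N < Nat.card T)
    (hg : dm g ≠ 0) : N < qf g ^ dm g := hN.trans_le (card_le h hg)

/-! ### the families, `3 * 29! < |T|` -/

section

variable {T : Type u} [Group T] (hT : 3 * Nat.factorial 29 < Nat.card T)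

include hT

theorem alt_ge {m : ℕ} (h : IsNamed (.alt m) T) : 30 ≤ m := by
  by_contra hcon
  have h1 : 2 * Nat.card T = m.factorial := h.eq
  have h2 : m.factorial ≤ Nat.factorial 29 := Nat.factorial_le (by omega)
  omega

theorem psl_ge {n q : ℕ} (h : IsNamed (.psl n q) T) :
    (n = 2 → 29823000000 < q) ∧ (n = 3 → 8471 < q) ∧ (n = 4 → 124 < q) ∧ (n = 5 → 20 < q) ∧ (n = 6 → 7 < q) ∧
      (n = 7 → 4 < q) ∧ (n = 8 → 3 < q) ∧ (n ≤ 10 → 2 < q) := by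
  refine ⟨?_, ?_, ?_, ?_, ?_, ?_, ?_, ?_⟩
  any_goals
    rintro rfl
    exact lt_qf h hT (by simp [dm]) (by norm_num [dm, Nat.factorial])
  intro hn
  refine lt_qf h hT (by have := h.cond.1; simp only [dm]; have : 2 ^ 2 ≤ n ^ 2 := Nat.pow_le_pow_left this _; omega) ?_
  have h1 : n ^ 2 ≤ 10 ^ 2 := Nat.pow_le_pow_left hn _
  calc 2 ^ (n ^ 2 - 1) ≤ 2 ^ 99 := Nat.pow_le_pow_right (by norm_num) (by omega)
    _ ≤ _ := by norm_num [Nat.factorial]

theorem psu_ge {n q : ℕ} (h : IsNamed (.psu n q) T) :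
    (n = 3 → 8471 < q) ∧ (n = 4 → 124 < q) ∧ (n = 5 → 20 < q) ∧ (n = 6 → 7 < q) ∧
      (n = 7 → 4 < q) ∧ (n = 8 → 3 < q) ∧ (n ≤ 10 → 2 < q) := by
  refine ⟨?_, ?_, ?_, ?_, ?_, ?_, ?_⟩
  any_goals
    rintro rfl
    exact lt_qf h hT (by simp [dm]) (by norm_num [dm, Nat.factorial])
  intro hn
  refine lt_qf h hT (by have := h.cond.1; simp only [dm]; have : 3 ^ 2 ≤ n ^ 2 := Nat.pow_le_pow_left this _; omega) ?_
  have h1 : n ^ 2 ≤ 10 ^ 2 := Nat.pow_le_pow_left hn _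
  calc 2 ^ (n ^ 2 - 1) ≤ 2 ^ 99 := Nat.pow_le_pow_right (by norm_num) (by omega)
    _ ≤ _ := by norm_num [Nat.factorial]

theorem psp_ge {m q : ℕ} (h : IsNamed (.psp m q) T) :
    (m = 2 → 1387 < q) ∧ (m = 3 → 31 < q) ∧ (m = 4 → 7 < q) ∧ (m = 5 → 3 < q) ∧ (m ≤ 6 → 2 < q) := by
  refine ⟨?_, ?_, ?_, ?_, ?_⟩
  any_goals
    rintro rfl
    exact lt_qf h hT (by simp [dm]) (by norm_num [dm, Nat.factorial])
  intro hn
  refine lt_qf h hT (by have := h.cond.1; simp only [dm]; positivity) ?_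
  have h1 : m * (2 * m + 1) ≤ 6 * 13 := Nat.mul_le_mul hn (by omega)
  calc 2 ^ (m * (2 * m + 1)) ≤ 2 ^ 78 := Nat.pow_le_pow_right (by norm_num) (by omega)
    _ ≤ _ := by norm_num [Nat.factorial]

theorem oodd_ge {m q : ℕ} (h : IsNamed (.oodd m q) T) :
    (m = 3 → 31 < q) ∧ (m = 4 → 7 < q) ∧ (m = 5 → 3 < q) ∧ 2 < q := by
  refine ⟨?_, ?_, ?_, ?_⟩
  any_goals
    rintro rfl
    exact lt_qf h hT (by simp [dm]) (by norm_num [dm, Nat.factorial])
  obtain ⟨-, h1, h2⟩ := h.cond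
  have h3 := h2.one_lt
  obtain ⟨k, hk⟩ := h1
  omega

theorem oplus_ge {m q : ℕ} (h : IsNamed (.oplus m q) T) :
    (m = 4 → 13 < q) ∧ (m = 5 → 4 < q) ∧ (m ≤ 7 → 2 < q) := by
  refine ⟨?_, ?_, ?_⟩
  any_goals
    rintro rfl
    exact lt_qf h hT (by simp [dm]) (by norm_num [dm, Nat.factorial])
  intro hn
  have h4 := h.cond.1
  refine lt_qf h hT (by simp only [dm]; have : 0 < m * (2 * m - 1) := Nat.mul_pos (by omega) (by omega); omega) ?_
  have h1 : m * (2 * m - 1) ≤ 7 * 13 := Nat.mul_le_mul hn (by omega)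
  calc 2 ^ (m * (2 * m - 1)) ≤ 2 ^ 91 := Nat.pow_le_pow_right (by norm_num) (by omega)
    _ ≤ _ := by norm_num [Nat.factorial]

theorem ominus_ge {m q : ℕ} (h : IsNamed (.ominus m q) T) :
    (m = 4 → 13 < q) ∧ (m = 5 → 4 < q) ∧ (m ≤ 7 → 2 < q) := by
  refine ⟨?_, ?_, ?_⟩
  any_goals
    rintro rfl
    exact lt_qf h hT (by simp [dm]) (by norm_num [dm, Nat.factorial])
  intro hn
  have h4 := h.cond.1
  refine lt_qf h hT (by simp only [dm]; have : 0 < m * (2 * m - 1) := Nat.mul_pos (by omega) (by omega); omega) ?_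
  have h1 : m * (2 * m - 1) ≤ 7 * 13 := Nat.mul_le_mul hn (by omega)
  calc 2 ^ (m * (2 * m - 1)) ≤ 2 ^ 91 := Nat.pow_le_pow_right (by norm_num) (by omega)
    _ ≤ _ := by norm_num [Nat.factorial]

theorem g2_ge {q : ℕ} (h : IsNamed (.g2 q) T) : 175 < q :=
  lt_qf h hT (by simp [dm]) (by norm_num [dm, Nat.factorial])

theorem f4_ge {q : ℕ} (h : IsNamed (.f4 q) T) : 4 < q :=
  lt_qf h hT (by simp [dm]) (by norm_num [dm, Nat.factorial])

theorem e6_ge {q : ℕ} (h : IsNamed (.e6 q) T) : 2 < q :=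
  lt_qf h hT (by simp [dm]) (by norm_num [dm, Nat.factorial])

theorem te6_ge {q : ℕ} (h : IsNamed (.te6 q) T) : 2 < q :=
  lt_qf h hT (by simp [dm]) (by norm_num [dm, Nat.factorial])

theorem td4_ge {q : ℕ} (h : IsNamed (.td4 q) T) : 13 < q :=
  lt_qf h hT (by simp [dm]) (by norm_num [dm, Nat.factorial])

theorem sz_ge {q : ℕ} (h : IsNamed (.sz q) T) : ∃ m, 10 ≤ m ∧ q = 2 ^ (2 * m + 1) := by
  obtain ⟨m, hm, hq⟩ := h.cond
  have h1 : 2 ^ 20 < q := lt_qf h hT (by simp [dm]) (by norm_num [dm, Nat.factorial])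
  rw [hq] at h1
  have := (Nat.pow_lt_pow_iff_right (by norm_num)).1 h1
  exact ⟨m, by omega, hq⟩

theorem ree_ge {q : ℕ} (h : IsNamed (.ree q) T) : ∃ m, 5 ≤ m ∧ q = 3 ^ (2 * m + 1) := by
  obtain ⟨m, hm, hq⟩ := h.cond
  have h1 : 3 ^ 9 < q := lt_qf h hT (by simp [dm]) (by norm_num [dm, Nat.factorial])
  rw [hq] at h1
  have := (Nat.pow_lt_pow_iff_right (by norm_num)).1 h1
  exact ⟨m, by omega, hq⟩

theorem tf4_ge {q : ℕ} (h : IsNamed (.tf4 q) T) : ∃ m, 2 ≤ m ∧ q = 2 ^ (2 * m + 1) := by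
  obtain ⟨m, hm, hq⟩ := h.cond
  have h1 : 2 ^ 4 < q := lt_qf h hT (by simp [dm]) (by norm_num [dm, Nat.factorial])
  rw [hq] at h1
  have := (Nat.pow_lt_pow_iff_right (by norm_num)).1 h1
  exact ⟨m, by omega, hq⟩

/-- the sporadic groups and the Tits group: only `B` and `M` are large enough -/
theorem spor_bm {g : Grp} (h : IsNamed g T) (hg : g ∈ spor.map (fun x => x.1)) : g = .b ∨ g = .m := by
  have h1 := h.ord
  rw [h1] at hT
  simp only [spor, List.map_cons, List.map_nil, List.mem_cons, List.not_mem_nil, or_false] at hg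
  rcases hg with rfl | rfl | rfl | rfl | rfl | rfl | rfl | rfl | rfl | rfl | rfl | rfl | rfl | rfl | rfl | rfl |
    rfl | rfl | rfl | rfl | rfl | rfl | rfl | rfl | rfl | rfl | rfl
  any_goals
    exfalso
    revert hT
    rw [imp_false, not_lt]
    decide
  · exact Or.inl rfl
  · exact Or.inr rfl

end

end Cfsg.Agent.H370.Rg
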