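import Mathlib
import Cfsg.Agent.H364.OutLie
import Cfsg.Agent.Lib.Zsigmondy
import Cfsg.Agent.H370.Rg.Size

/-!
# S3691: primitive prime divisors and outer automorphism groups (helper370)

`q = p ^ f`, `r` a prime with `orderOf (p : ZMod r) = f * k` (a primitive prime divisor of `p ^ (f k) - 1`; `k in X` in the plan).

* `exists_rk` : existence
* `ord_q`, `dvd_q_pow_sub` : `orderOf (q : ZMod r) = k`, `r ∣ q ^ m - 1 ↔ k ∣ m`;  `dvd_pred` : `f * k ∣ r - 1`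
* `not_dvd_out` : `r` does not divide `|Out S|` (`S` of Lie type over the field of `p ^ f` elements, `3 ≤ k`);
  `not_dvd_out_of` : a prime `5 ≤ r`, prime to `f` and to the order `dd` of the Schur/diagonal part, does not divide `|Out S|`
* `out_psl`, `out_psu`, `out_psp`, `out_oodd`, `out_oplus`, `out_ominus` : the versions with an isomorphism `S ≃* ...`
* `out_named` : the version with `IsNamed g S`
-/

set_option autoImplicit false

namespace Cfsg.Agent.H370.Rg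

open Cfsg Cfsg.Agent.OrdDiv Finset
open Cfsg.Agent.H902 Cfsg.Agent.H902.Names Cfsg.Agent.H436

universe u

/-! ### primitive prime divisors -/

theorem exists_rk {p f k : ℕ} (hp : p.Prime) (h3 : 3 ≤ f * k) (h6 : ¬ (p = 2 ∧ f * k = 6)) :
    ∃ r, r.Prime ∧ orderOf ((p : ℕ) : ZMod r) = f * k ∧ f * k < r ∧ ¬ r ∣ p := by
  obtain ⟨r, hr, ho⟩ := Cfsg.Agent.Lib.Zsigmondy.exists_prime_orderOf hp.two_le (by omega : 2 ≤ f * k)
    (fun h => by omega) h6
  have := Fact.mk hr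
  have hne : ((p : ℕ) : ZMod r) ≠ 0 := by
    intro h0
    rw [h0] at ho
    have : orderOf (0 : ZMod r) = 0 := by
      rw [orderOf_eq_zero_iff']
      intro m hm
      rw [zero_pow hm.ne']
      exact zero_ne_one
    omega
  have h1 : orderOf ((p : ℕ) : ZMod r) ∣ r - 1 := by
    apply orderOf_dvd_of_pow_eq_one
    exact ZMod.pow_card_sub_one_eq_one hne
  refine ⟨r, hr, ho, ?_, ?_⟩
  · have h2 := Nat.le_of_dvd (by have := hr.two_le; omega) h1
    have := hr.two_le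
    omega
  · intro h
    exact hne ((ZMod.natCast_eq_zero_iff p r).2 h)

section ord

variable {p f k r : ℕ} (hr : r.Prime) (ho : orderOf ((p : ℕ) : ZMod r) = f * k) (hfk : 1 ≤ f * k)

include hr ho hfk

theorem p_ne_zero : ((p : ℕ) : ZMod r) ≠ 0 := by
  have := Fact.mk hr
  intro h0
  rw [h0] at ho
  have : orderOf (0 : ZMod r) = 0 := by
    rw [orderOf_eq_zero_iff']
    intro m hm
    rw [zero_pow hm.ne']
    exact zero_ne_one
  omega

theorem not_dvd_p : ¬ r ∣ p := fun h => p_ne_zero hr ho hfk ((ZMod.natCast_eq_zero_iff p r).2 h)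

theorem dvd_pred : f * k ∣ r - 1 := by
  have := Fact.mk hr
  rw [← ho]
  exact orderOf_dvd_of_pow_eq_one (ZMod.pow_card_sub_one_eq_one (p_ne_zero hr ho hfk))

theorem lt_r : f * k < r := by
  have h2 := Nat.le_of_dvd (by have := hr.two_le; omega) (dvd_pred hr ho hfk)
  have := hr.two_le
  omega

omit hr in
theorem ord_q : orderOf ((p ^ f : ℕ) : ZMod r) = k := by
  have hf : f ≠ 0 := by rintro rfl; omega
  rw [Nat.cast_pow, orderOf_pow' _ hf, ho, Nat.gcd_eq_right (Dvd.intro _ rfl), Nat.mul_div_cancel_left _ (Nat.pos_of_ne_zero hf)]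

theorem dvd_q_pow_sub (m : ℕ) : r ∣ (p ^ f) ^ m - 1 ↔ k ∣ m := by
  have hp : 1 ≤ p ^ f := by
    have : p ≠ 0 := by
      rintro rfl
      exact not_dvd_p hr ho hfk (dvd_zero r)
    exact Nat.one_le_pow _ _ (Nat.pos_of_ne_zero this)
  rw [← ZMod.natCast_eq_zero_iff, Nat.cast_sub (Nat.one_le_pow _ _ hp), Nat.cast_pow, Nat.cast_one, sub_eq_zero,
    ← orderOf_dvd_iff_pow_eq_one, ord_q ho hfk]

theorem not_dvd_f : ¬ r ∣ f := by
  intro h
  have hf : 0 < f := Nat.pos_of_ne_zero (by rintro rfl; omega)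
  have hk : 0 < k := Nat.pos_of_ne_zero (by rintro rfl; omega)
  have h1 := Nat.le_of_dvd hf h
  have h2 := lt_r hr ho hfk
  have h3 : f ≤ f * k := Nat.le_mul_of_pos_right _ hk
  omega

theorem not_dvd_q_sub (h2 : 2 ≤ k) : ¬ r ∣ p ^ f - 1 := by
  have h1 := dvd_q_pow_sub hr ho hfk 1
  rw [pow_one] at h1
  rw [h1]
  intro h
  have := Nat.le_of_dvd one_pos h
  omega

theorem not_dvd_q_add (h3 : 3 ≤ k) : ¬ r ∣ p ^ f + 1 := by
  intro h
  have h1 := dvd_q_pow_sub hr ho hfk 2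
  have h2 : r ∣ (p ^ f) ^ 2 - 1 := by
    have : (p ^ f) ^ 2 - 1 = (p ^ f + 1) * (p ^ f - 1) := by
      have := Nat.sq_sub_sq (p ^ f) 1
      rwa [one_pow] at this
    rw [this]
    exact Dvd.dvd.mul_right h _
  have := Nat.le_of_dvd two_pos (h1.1 h2)
  omega

end ord

/-! ### the outer automorphism group -/

section out

variable {S : Type u} [Group S] [Finite S] [IsSimpleGroup S] (hna : ¬ IsMulCommutative S)

include hna

theorem not_dvd_out_of {g : Grp} {X : Art.Sh} {p f : ℕ} (hg : IsLie g X p f) (h : OrdDiv.Real g S)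
    (hr : Art.Real X p f (Nat.card S)) {r : ℕ} (hrp : r.Prime) (h5 : 5 ≤ r) (hf : ¬ r ∣ f)
    (hd : ¬ r ∣ Art.dd X (p ^ f)) : ¬ r ∣ Nat.card (Cfsg.Out S) := by
  obtain ⟨c, h1, h2, -⟩ := Cfsg.Agent.H364.OutLie.card_out (fun hc => hna ⟨⟨hc⟩⟩) hg h hr
  rw [h1, hrp.dvd_mul]
  rintro (h3 | h3)
  · rcases (hrp.dvd_mul).1 (h3.trans h2) with h4 | h4
    · have h6 : (24 : ℕ) = 2 ^ 3 * 3 := by norm_num
      rw [h6, hrp.dvd_mul] at h4
      rcases h4 with h4 | h4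
      · have := Nat.le_of_dvd (by norm_num) (hrp.dvd_of_dvd_pow h4)
        omega
      · have := Nat.le_of_dvd (by norm_num) h4
        omega
    · exact hd h4
  · exact hf h3

/-- the primitive primes `r_k`, `3 ≤ k`, do not divide `|Out S|` -/
theorem not_dvd_out {g : Grp} {X : Art.Sh} {p f : ℕ} (hg : IsLie g X p f) (h : OrdDiv.Real g S)
    (hr : Art.Real X p f (Nat.card S)) {r k : ℕ} (hrp : r.Prime) (hk : 3 ≤ k)
    (ho : orderOf ((p : ℕ) : ZMod r) = f * k) : ¬ r ∣ Nat.card (Cfsg.Out S) := by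
  have hf := hr.hf
  have hfk : 1 ≤ f * k := Nat.mul_pos hf (by omega)
  have hlt := lt_r hrp ho hfk
  have h3 : 3 ≤ f * k := by
    calc 3 = 1 * 3 := by norm_num
      _ ≤ f * k := Nat.mul_le_mul hf hk
  have h5 : 5 ≤ r := by
    have : r ≠ 4 := by rintro rfl; exact absurd hrp (by norm_num)
    omega
  refine not_dvd_out_of hna hg h hr hrp h5 (not_dvd_f hrp ho hfk) ?_
  have hm := not_dvd_q_sub hrp ho hfk (by omega)
  have hp := not_dvd_q_add hrp ho hfk hk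
  cases X with
  | L n => exact fun h => hm (h.trans (Nat.gcd_dvd_right _ _))
  | C n => exact fun h => hm (h.trans (Nat.gcd_dvd_right _ _))
  | U n => exact fun h => hp (h.trans (Nat.gcd_dvd_right _ _))
  | D n =>
    intro h
    have := Nat.le_of_dvd (by norm_num) (h.trans (Nat.gcd_dvd_left _ _))
    omega
  | DD n =>
    intro h
    have := Nat.le_of_dvd (by norm_num) (h.trans (Nat.gcd_dvd_left _ _))
    omega
  | E6 => exact fun h => hm (h.trans (Nat.gcd_dvd_right _ _))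
  | E7 => exact fun h => hm (h.trans (Nat.gcd_dvd_right _ _))
  | TE6 => exact fun h => hp (h.trans (Nat.gcd_dvd_right _ _))
  | _ => exact fun h => hrp.one_lt.ne' (Nat.dvd_one.1 h)

variable {F : Type} [Field F] [Fintype F] {p f : ℕ} (hp : p.Prime) (hf : 1 ≤ f)

include hp hf

theorem out_psl (hF : Fintype.card F = p ^ f) {n : ℕ} (hn : 2 ≤ n) (hn2 : n = 2 → 4 ≤ p ^ f)
    (e : Nonempty (S ≃* Matrix.ProjectiveSpecialLinearGroup (Fin n) F)) {r k : ℕ} (hrp : r.Prime) (hk : 3 ≤ k)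
    (ho : orderOf ((p : ℕ) : ZMod r) = f * k) : ¬ r ∣ Nat.card (Cfsg.Out S) := by
  obtain ⟨e⟩ := e
  exact not_dvd_out hna (.psl n p f) ⟨F, inferInstance, inferInstance, hF, ⟨e⟩⟩
    (by rw [Nat.card_congr e.toEquiv]; exact psl_real hp hf hF hn hn2) hrp hk ho

theorem out_psp (hF : Fintype.card F = p ^ f) {n : ℕ} (hn : 2 ≤ n) (hn2 : n = 2 → 3 ≤ p ^ f)
    (e : Nonempty (S ≃* PSp n F)) {r k : ℕ} (hrp : r.Prime) (hk : 3 ≤ k)
    (ho : orderOf ((p : ℕ) : ZMod r) = f * k) : ¬ r ∣ Nat.card (Cfsg.Out S) := by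
  obtain ⟨e⟩ := e
  exact not_dvd_out hna (.psp n p f) ⟨F, inferInstance, inferInstance, hF, ⟨e⟩⟩
    (by rw [Nat.card_congr e.toEquiv]; exact psp_real hp hf hF hn hn2) hrp hk ho

theorem out_psu (hF : Fintype.card F = (p ^ f) ^ 2) {n : ℕ} (hn : 3 ≤ n) (hn2 : ¬ (n = 3 ∧ p ^ f = 2))
    (e : Nonempty (S ≃* PSU n F (p ^ f))) {r k : ℕ} (hrp : r.Prime) (hk : 3 ≤ k)
    (ho : orderOf ((p : ℕ) : ZMod r) = f * k) : ¬ r ∣ Nat.card (Cfsg.Out S) := by
  obtain ⟨e⟩ := e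
  exact not_dvd_out hna (.psu n p f) ⟨F, inferInstance, inferInstance, hF, ⟨e⟩⟩
    (by rw [Nat.card_congr e.toEquiv]; exact psu_real hp hf hF hn hn2) hrp hk ho

theorem out_oodd (hF : Fintype.card F = p ^ f) {n : ℕ} (hn : 3 ≤ n) (hodd : Odd (p ^ f))
    (e : Nonempty (S ≃* POmega F (quadFormOdd n F))) {r k : ℕ} (hrp : r.Prime) (hk : 3 ≤ k)
    (ho : orderOf ((p : ℕ) : ZMod r) = f * k) : ¬ r ∣ Nat.card (Cfsg.Out S) := by
  obtain ⟨e⟩ := e
  exact not_dvd_out hna (.oodd n p f hn hodd) ⟨F, inferInstance, inferInstance, hF, ⟨e⟩⟩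
    (by rw [Nat.card_congr e.toEquiv]; exact oodd_real hp hf hF hn hodd) hrp hk ho

theorem out_oplus (hF : Fintype.card F = p ^ f) {n : ℕ} (hn : 4 ≤ n)
    (e : Nonempty (S ≃* POmega F (quadFormPlus n F))) {r k : ℕ} (hrp : r.Prime) (hk : 3 ≤ k)
    (ho : orderOf ((p : ℕ) : ZMod r) = f * k) : ¬ r ∣ Nat.card (Cfsg.Out S) := by
  obtain ⟨e⟩ := e
  exact not_dvd_out hna (.oplus n p f) ⟨F, inferInstance, inferInstance, hF, ⟨e⟩⟩
    (by rw [Nat.card_congr e.toEquiv]; exact oplus_real hp hf hF hn) hrp hk ho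

theorem out_ominus (hF : Fintype.card F = p ^ f) {n : ℕ} (hn : 4 ≤ n) {a b : F}
    (hab : ∀ z₁ z₂ : F, z₁ ^ 2 + a * z₁ * z₂ + b * z₂ ^ 2 = 0 → z₁ = 0 ∧ z₂ = 0)
    (e : Nonempty (S ≃* POmega F (quadFormMinus (n - 1) F a b))) {r k : ℕ} (hrp : r.Prime) (hk : 3 ≤ k)
    (ho : orderOf ((p : ℕ) : ZMod r) = f * k) : ¬ r ∣ Nat.card (Cfsg.Out S) := by
  obtain ⟨e⟩ := e
  exact not_dvd_out hna (.ominus n p f) ⟨F, inferInstance, inferInstance, a, b, hF, hab, ⟨e⟩⟩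
    (by rw [Nat.card_congr e.toEquiv]; exact ominus_real hp hf hF hn hab) hrp hk ho

end out

/-- the version for `IsNamed` -/
theorem exists_isLie {S : Type u} [Group S] {g : Grp} (h : IsNamed g S) (hg : dm g ≠ 0) {p f : ℕ} (hp : p.Prime)
    (hf : 1 ≤ f) (hq : qf g = p ^ f) : ∃ X, IsLie g X p f ∧ Art.Real X p f (Nat.card S) := by
  have hc := h.cond
  have hr := h.real
  have he := h.eq
  cases g with
  | psl n q =>
    obtain rfl : q = p ^ f := hq
    obtain ⟨F, _, _, hF, ⟨e⟩⟩ := hr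
    exact ⟨_, .psl n p f, by rw [Nat.card_congr e.toEquiv]; exact psl_real hp hf hF hc.1 hc.2.1⟩
  | psp n q =>
    obtain rfl : q = p ^ f := hq
    obtain ⟨F, _, _, hF, ⟨e⟩⟩ := hr
    exact ⟨_, .psp n p f, by rw [Nat.card_congr e.toEquiv]; exact psp_real hp hf hF hc.1 hc.2.1⟩
  | psu n q =>
    obtain rfl : q = p ^ f := hq
    obtain ⟨F, _, _, hF, ⟨e⟩⟩ := hr
    exact ⟨_, .psu n p f, by rw [Nat.card_congr e.toEquiv]; exact psu_real hp hf hF hc.1 hc.2.1⟩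
  | oodd n q =>
    obtain rfl : q = p ^ f := hq
    obtain ⟨F, _, _, hF, ⟨e⟩⟩ := hr
    exact ⟨_, .oodd n p f hc.1 hc.2.1, by rw [Nat.card_congr e.toEquiv]; exact oodd_real hp hf hF hc.1 hc.2.1⟩
  | oplus n q =>
    obtain rfl : q = p ^ f := hq
    obtain ⟨F, _, _, hF, ⟨e⟩⟩ := hr
    exact ⟨_, .oplus n p f, by rw [Nat.card_congr e.toEquiv]; exact oplus_real hp hf hF hc.1⟩
  | ominus n q =>
    obtain rfl : q = p ^ f := hq
    obtain ⟨F, _, _, a, b, hF, hab, ⟨e⟩⟩ := hr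
    exact ⟨_, .ominus n p f, by rw [Nat.card_congr e.toEquiv]; exact ominus_real hp hf hF hc.1 hab⟩
  | g2 q =>
    obtain rfl : q = p ^ f := hq
    exact ⟨_, .g2 p f, hp, hf, hc.1, he⟩
  | f4 q =>
    obtain rfl : q = p ^ f := hq
    exact ⟨_, .f4 p f, hp, hf, trivial, he⟩
  | e6 q =>
    obtain rfl : q = p ^ f := hq
    exact ⟨_, .e6 p f, hp, hf, trivial, he⟩
  | e7 q =>
    obtain rfl : q = p ^ f := hq
    exact ⟨_, .e7 p f, hp, hf, trivial, he⟩
  | e8 q =>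
    obtain rfl : q = p ^ f := hq
    exact ⟨_, .e8 p f, hp, hf, trivial, he⟩
  | te6 q =>
    obtain rfl : q = p ^ f := hq
    exact ⟨_, .te6 p f, hp, hf, trivial, he⟩
  | td4 q =>
    obtain rfl : q = p ^ f := hq
    exact ⟨_, .td4 p f, hp, hf, trivial, he⟩
  | sz q =>
    obtain rfl : q = p ^ f := hq
    obtain ⟨m, hm, h1⟩ := hc
    have h2 : p = 2 := by
      have h3 : p ∣ 2 ^ (2 * m + 1) := by rw [← h1]; exact dvd_pow_self p (by omega)
      exact (Nat.prime_dvd_prime_iff_eq hp Nat.prime_two).1 (hp.dvd_of_dvd_pow h3)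
    subst h2
    have h3 : f = 2 * m + 1 := Nat.pow_right_injective (le_refl 2) h1
    exact ⟨_, .sz 2 f, hp, hf, ⟨rfl, by rw [h3]; exact odd_two_mul_add_one m, by omega⟩, he⟩
  | ree q =>
    obtain rfl : q = p ^ f := hq
    obtain ⟨m, hm, h1⟩ := hc
    have h2 : p = 3 := by
      have h3 : p ∣ 3 ^ (2 * m + 1) := by rw [← h1]; exact dvd_pow_self p (by omega)
      exact (Nat.prime_dvd_prime_iff_eq hp Nat.prime_three).1 (hp.dvd_of_dvd_pow h3)
    subst h2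
    have h3 : f = 2 * m + 1 := Nat.pow_right_injective (by norm_num : 2 ≤ 3) h1
    exact ⟨_, .ree 3 f, hp, hf, ⟨rfl, by rw [h3]; exact odd_two_mul_add_one m, by omega⟩, he⟩
  | tf4 q =>
    obtain rfl : q = p ^ f := hq
    obtain ⟨m, hm, h1⟩ := hc
    have h2 : p = 2 := by
      have h3 : p ∣ 2 ^ (2 * m + 1) := by rw [← h1]; exact dvd_pow_self p (by omega)
      exact (Nat.prime_dvd_prime_iff_eq hp Nat.prime_two).1 (hp.dvd_of_dvd_pow h3)
    subst h2
    have h3 : f = 2 * m + 1 := Nat.pow_right_injective (le_refl 2) h1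
    exact ⟨_, .tf4 2 f, hp, hf, ⟨rfl, by rw [h3]; exact odd_two_mul_add_one m, by omega⟩, he⟩
  | _ => exact absurd rfl hg

/-- the primitive primes `r_k`, `3 ≤ k`, do not divide `|Out S|` -/
theorem out_named {S : Type u} [Group S] [Finite S] [IsSimpleGroup S] (hna : ¬ IsMulCommutative S) {g : Grp}
    (h : IsNamed g S) (hg : dm g ≠ 0) {p f : ℕ} (hp : p.Prime) (hf : 1 ≤ f) (hq : qf g = p ^ f)
    {r k : ℕ} (hrp : r.Prime) (hk : 3 ≤ k) (ho : orderOf ((p : ℕ) : ZMod r) = f * k) :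
    ¬ r ∣ Nat.card (Cfsg.Out S) := by
  obtain ⟨X, h1, h2⟩ := exists_isLie h hg hp hf hq
  exact not_dvd_out hna h1 h.real h2 hrp hk ho

end Cfsg.Agent.H370.Rg
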